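import Cfsg.Agent.H59.GlaubermanSolvable
import Cfsg.Prelude.Def_KGroupFacts

/-!
# Solvable automorphism group of a Sylow 2-subgroup gives solvable outer automorphisms

By the Frattini argument `Out G` is an image of the stabiliser of `S` in `MulAut G`, whose part fixing
`S` pointwise has a derived group of odd order.
-/

set_option autoImplicit false

namespace Cfsg.Agent.H23

universe u

variable {G : Type u} [Group G] [Finite G]

/-- Restriction of the automorphisms stabilising a subgroup. -/
theorem out_solvable_of_aut_sylow_two_solvable [IsSimpleGroup G] (S : Sylow 2 G)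
    (hS1 : (S : Subgroup G) ≠ ⊥) (hS : Group.IsSolvable (MulAut ↥S))
    (hFT : ∀ (H : Type u) [Group H] [Finite H], Odd (Nat.card H) → Group.IsSolvable H) :
    Group.IsSolvable (Cfsg.Out G) := by
  classical
  haveI : Fact (Nat.Prime 2) := ⟨Nat.prime_two⟩
  let N : Subgroup (MulAut G) :=
    { carrier := {φ | ∀ s : G, φ s ∈ (S : Subgroup G) ↔ s ∈ (S : Subgroup G)}
      mul_mem' := fun {a b} ha hb s => (ha (b s)).trans (hb s)
      one_mem' := fun _ => Iff.rfl
      inv_mem' := fun {a} ha s => by
        have h := ha (a⁻¹ s)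
        rw [MulAut.apply_inv_self] at h
        exact h.symm }
  let r : N →* MulAut ↥(S : Subgroup G) :=
    { toFun := fun φ =>
        { toFun := fun s => ⟨(φ : MulAut G) s, (φ.2 s).2 s.2⟩
          invFun := fun s => ⟨(φ : MulAut G)⁻¹ s, ((inv_mem φ.2) s).2 s.2⟩
          left_inv := fun s => Subtype.ext (MulAut.inv_apply_self G (φ : MulAut G) s)
          right_inv := fun s => Subtype.ext (MulAut.apply_inv_self G (φ : MulAut G) s)
          map_mul' := fun s t => Subtype.ext (map_mul (φ : MulAut G) (s : G) (t : G)) }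
      map_one' := MulEquiv.ext fun s => Subtype.ext rfl
      map_mul' := fun φ ψ => MulEquiv.ext fun s => Subtype.ext rfl }
  let C : Subgroup (MulAut G) := r.ker.map N.subtype
  have hC : ∀ φ : MulAut G, φ ∈ C → ∀ s : G, s ∈ S → φ s = s := by
    rintro _ ⟨φ, hφ, rfl⟩ s hs
    exact congrArg Subtype.val (DFunLike.congr_fun (MonoidHom.mem_ker.1 hφ) ⟨s, hs⟩)
  have hO : ∀ K : Subgroup G, K.Normal → Odd (Nat.card K) → K = ⊥ := by
    intro K hK hodd
    refine (hK.eq_bot_or_eq_top).resolve_right fun htop => hS1 ?_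
    obtain ⟨k, hk⟩ := IsPGroup.iff_card.1 S.2
    have hdvd : Nat.card (S : Subgroup G) ∣ Nat.card K := by
      rw [htop, Subgroup.card_top]; exact (S : Subgroup G).card_subgroup_dvd_card
    apply Subgroup.eq_bot_of_card_eq
    exact Nat.eq_one_of_dvd_coprimes ((Nat.coprime_two_left.mpr hodd).pow_left k) (hk ▸ dvd_rfl) hdvd
  haveI : Group.IsSolvable C := H59.isSolvable_of_odd_commutator
    (H59.odd_card_commutator_autFix hO S C hC) fun K hK => hFT K hK
  haveI : Group.IsSolvable r.ker :=
    Group.isSolvable_of_isSolvable_injective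
      (f := (r.ker.equivMapOfInjective N.subtype N.subtype_injective).toMonoidHom)
      (MulEquiv.injective _)
  haveI : Group.IsSolvable N := Group.isSolvable_of_ker_le_range r.ker.subtype r
    (le_of_eq (Subgroup.range_subtype _).symm)
  refine Group.isSolvable_of_surjective (f := (QuotientGroup.mk' (Cfsg.Inn G)).comp N.subtype) ?_
  intro x
  obtain ⟨φ, rfl⟩ := QuotientGroup.mk'_surjective _ x
  -- the image of `S` under `φ` is a Sylow subgroup, hence conjugate to `S`
  let Q : Sylow 2 G := S.mapSurjective (f := φ.toMonoidHom) φ.surjective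
  obtain ⟨g, hg⟩ := MulAction.exists_smul_eq G Q S
  have hg' : ∀ s : G, g * φ s * g⁻¹ ∈ (S : Subgroup G) ↔ s ∈ (S : Subgroup G) := by
    intro s
    have h1 : g * φ s * g⁻¹ ∈ ((g • Q : Sylow 2 G) : Subgroup G) ↔ φ s ∈ (Q : Subgroup G) := by
      rw [Sylow.coe_subgroup_smul]
      exact Subgroup.smul_mem_pointwise_smul_iff (a := MulAut.conj g)
    rw [hg] at h1
    refine h1.trans ?_
    show φ s ∈ (S : Subgroup G).map φ.toMonoidHom ↔ _
    exact Subgroup.mem_map_iff_mem (f := φ.toMonoidHom) φ.injective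
  refine ⟨⟨MulAut.conj g * φ, hg'⟩, ?_⟩
  show QuotientGroup.mk' (Cfsg.Inn G) (MulAut.conj g * φ) = QuotientGroup.mk' (Cfsg.Inn G) φ
  have h1 : QuotientGroup.mk' (Cfsg.Inn G) (MulAut.conj g) = 1 :=
    (QuotientGroup.eq_one_iff _).2 ⟨g, rfl⟩
  rw [map_mul, h1, one_mul]

end Cfsg.Agent.H23
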